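import Mathlib
import Cfsg.Agent.H4.AnD
/-! Unique holder of lemmas Lean writes on demand. -/
set_option linter.all false
namespace CfOD
theorem Helper4x52b5d044c4_0 : type_of% @CfH4.anB.eq_1 := @CfH4.anB.eq_1
theorem Helper4x52b5d044c4_1 : type_of% @CfH4.anCm.eq_1 := @CfH4.anCm.eq_1
theorem Helper4x52b5d044c4_2 : type_of% @CfH4.anPw.eq_1 := @CfH4.anPw.eq_1
theorem Helper4x52b5d044c4_3 : type_of% @CfH4.anPw.eq_2 := @CfH4.anPw.eq_2
theorem Helper4x52b5d044c4_4 : type_of% @CfH4.anPw.eq_def := @CfH4.anPw.eq_def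
theorem Helper4x52b5d044c4_5 : type_of% @CfH4.anU.eq_1 := @CfH4.anU.eq_1
theorem Helper4x52b5d044c4_6 : type_of% @CfH4.anil.eq_1 := @CfH4.anil.eq_1
end CfOD
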