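import Mathlib
import Cfsg.Agent.H4.G3D
/-! Unique holder of lemmas Lean writes on demand. -/
set_option linter.all false
namespace CfOD
theorem Helper4x2a1f0ebafd_0 : type_of% @CfH4.g3B.eq_1 := @CfH4.g3B.eq_1
theorem Helper4x2a1f0ebafd_1 : type_of% @CfH4.g3C.eq_1 := @CfH4.g3C.eq_1
theorem Helper4x2a1f0ebafd_2 : type_of% @CfH4.g3I.eq_1 := @CfH4.g3I.eq_1
theorem Helper4x2a1f0ebafd_3 : type_of% @CfH4.g3M.eq_1 := @CfH4.g3M.eq_1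
theorem Helper4x2a1f0ebafd_4 : type_of% @CfH4.g3R.eq_1 := @CfH4.g3R.eq_1
theorem Helper4x2a1f0ebafd_5 : type_of% @CfH4.g3r1.eq_1 := @CfH4.g3r1.eq_1
theorem Helper4x2a1f0ebafd_6 : type_of% @CfH4.g3r2.eq_1 := @CfH4.g3r2.eq_1
end CfOD
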